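import Cfsg.Agent.H672.OZ.Mathieu
import Cfsg.Agent.H849.OZ.Bad
import Cfsg.Agent.H968.TwoM22Fact
import Cfsg.Agent.H399.OZ.Dat

/-!
# One vanishing class: `M₁₁`, `M₁₂`, `M₂₂` (helper399, S4842)

The sieve leaves the degrees 10, 12 for `M₁₁`, 12, 32, 144 for `M₁₂`, 120 for `M₂₂`. They are excluded by the value
at an element of order 4 (`|C| = 8`), of order 8 (`|C| = 8`), of order 3 (`|C| = 36`), respectively.
-/

set_option autoImplicit false
set_option maxRecDepth 100000

open Cfsg Cfsg.Agent.Characters Cfsg.Agent.H732.VZ Cfsg.Agent.H604.OZ Cfsg.Agent.H672.OZ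

namespace Cfsg.Agent.H399.OZ

universe u

/-! ### `M₂₂` -/

theorem row_m22' [Finite Spor.M22] : H730.OZ.Row Spor.M22 := by
  have hN : Nat.card Spor.M22 = 443520 := H715.Fpr.MathData.card22
  have hs : IsSimpleGroup Spor.M22 := H715.Fpr.MathData.simple22
  refine row_of fun χ x h => ?_
  have h4 : 4 ≤ cent x := four_le_cent h (by rw [hN]; norm_num) (by rw [hN]; norm_num)
  have hiso : ∀ r ∈ [7, 11], charDegree (χ : Spor.M22 → ℂ) % r = 0 ∨
      charDegree (χ : Spor.M22 → ℂ) % r = 1 ∨ charDegree (χ : Spor.M22 → ℂ) % r = r - 1 := by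
    intro r hr
    simp only [List.mem_cons, List.not_mem_nil, or_false] at hr
    rcases hr with rfl | rfl
    · exact iso_mod h (by norm_num) (by norm_num) (by rw [hN]; norm_num) (by rw [hN]; norm_num) (by rw [hN]; norm_num)
        (fun y hy => card_cent_zpowers H715.Fpr.MathData.cn22_7 hy) h4
    · exact iso_mod h (by norm_num) (by norm_num) (by rw [hN]; norm_num) (by rw [hN]; norm_num) (by rw [hN]; norm_num)
        (fun y hy => card_cent_zpowers H715.Fpr.MathData.cn22_11 hy) h4
  have hm := mem_of_sieve4 h hN (l := [(2,7),(3,2),(5,1),(7,1),(11,1)]) (by decide +kernel)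
    (by
      intro x hx
      simp only [List.mem_cons, List.not_mem_nil, or_false] at hx
      rcases hx with rfl | rfl | rfl | rfl | rfl <;> norm_num)
    (by decide +kernel) h4 hiso (D := [120]) (by decide +kernel)
  have hd : charDegree (χ : Spor.M22 → ℂ) = 120 := by
    simpa only [List.mem_cons, List.not_mem_nil, or_false] using hm
  have hf := full h (r := 5) (n := 1) (by norm_num) (by norm_num) (by rw [hN]; norm_num) (by rw [hN]; norm_num)
    (by rw [hd]; norm_num)
  obtain ⟨-, ⟨s, -, -, a1, -, -, -, a5, a6, -, -⟩, -⟩ := H968.TwoM22.three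
  have hy : ∀ m : ℕ, m.Coprime (Nat.card Spor.M22) → IsConj (s ^ m) s := fun m hm => (a6 _ (by
    rw [Nat.Coprime.orderOf_pow (Nat.Coprime.coprime_dvd_left (_root_.orderOf_dvd_natCard s) hm.symm), a1])).symm
  have h2 : cent s = 36 := a5
  have h3 : cent x = 5 ^ 1 := hf.2.1
  have hx : ¬ IsConj x s := fun hc => by
    have h1 := cent_eq_of_conj hc
    rw [h2, h3] at h1
    norm_num at h1
  have h1 := H849.OZ.one_prime h Nat.prime_three (by rw [hd]; norm_num) ⟨1, by rw [a1, pow_one]⟩ hy hx
  rw [h2, h3] at h1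
  norm_num at h1

/-- **`M₂₂`.** -/
theorem row_m22 {S : Type u} [Group S] [Finite S] (_hs : IsSimpleGroup S) (h : Spor.IsoM22 S) : H730.OZ.Row S := by
  obtain ⟨e⟩ := h
  have hfin : Finite Spor.M22 := Finite.of_equiv _ e.toEquiv
  exact H730.OZ.Row.congr e row_m22'

/-! ### `M₁₂` -/

/-- A coprime exponent is odd. -/
theorem odd_of_coprime {N m : ℕ} (h2 : 2 ∣ N) (hm : m.Coprime N) : ¬ 2 ∣ m := fun h =>
  Nat.not_coprime_of_dvd_of_dvd (by norm_num : 1 < 2) h h2 hm

theorem row_m12' [Finite Spor.M12] : H730.OZ.Row Spor.M12 := by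
  have hN : Nat.card Spor.M12 = 95040 := H715.Fpr.MathData.card12
  have hs : IsSimpleGroup Spor.M12 := H715.Fpr.MathData.simple12
  refine row_of fun χ x h => ?_
  have h4 : 4 ≤ cent x := four_le_cent h (by rw [hN]; norm_num) (by rw [hN]; norm_num)
  have hiso : ∀ r ∈ [11], charDegree (χ : Spor.M12 → ℂ) % r = 0 ∨
      charDegree (χ : Spor.M12 → ℂ) % r = 1 ∨ charDegree (χ : Spor.M12 → ℂ) % r = r - 1 := by
    intro r hr
    simp only [List.mem_cons, List.not_mem_nil, or_false] at hr
    rcases hr with rfl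
    exact iso_mod h (by norm_num) (by norm_num) (by rw [hN]; norm_num) (by rw [hN]; norm_num) (by rw [hN]; norm_num)
        (fun y hy => card_cent_zpowers H715.Fpr.MathData.cn12_11 hy) h4
  have hm := mem_of_sieve4 h hN (l := [(2,6),(3,3),(5,1),(11,1)]) (by decide +kernel)
    (by
      intro x hx
      simp only [List.mem_cons, List.not_mem_nil, or_false] at hx
      rcases hx with rfl | rfl | rfl | rfl <;> norm_num)
    (by decide +kernel) h4 hiso (D := [12, 32, 144]) (by decide +kernel)
  have hd : charDegree (χ : Spor.M12 → ℂ) = 12 ∨ charDegree (χ : Spor.M12 → ℂ) = 32 ∨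
      charDegree (χ : Spor.M12 → ℂ) = 144 := by
    simpa only [List.mem_cons, List.not_mem_nil, or_false] using hm
  have h5 : cent x ≤ 5 := by
    rcases hd with hd | hd | hd
    · exact cent_le_of h hN (r := 5) (n := 1) (by norm_num) hd (by norm_num) (by norm_num) (by norm_num)
    · exact cent_le_of h hN (r := 5) (n := 1) (by norm_num) hd (by norm_num) (by norm_num) (by norm_num)
    · have h1 := cent_mul_sq_le h
      rw [hN, hd] at h1
      omega
  obtain ⟨y, hy, hcy, hrat⟩ := exists_y12
  have h2 : 2 ∣ charDegree (χ : Spor.M12 → ℂ) := by omega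
  have h8 : 8 ≤ cent y := by
    rw [← hy]
    exact Nat.le_of_dvd Nat.card_pos (Subgroup.orderOf_dvd_natCard _ (mem_cent.2 rfl))
  have h1 := H849.OZ.one_prime h Nat.prime_two h2 ⟨3, by rw [hy]; norm_num⟩
    (fun m hm => hrat m (odd_of_coprime (by rw [hN]; norm_num) hm)) (fun hc => by
      have h3 := cent_eq_of_conj hc
      omega)
  have h3 : cent y ≤ 8 := hcy
  omega

/-- **`M₁₂`.** -/
theorem row_m12 {S : Type u} [Group S] [Finite S] (_hs : IsSimpleGroup S) (h : Spor.IsoM12 S) : H730.OZ.Row S := by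
  obtain ⟨e⟩ := h
  have hfin : Finite Spor.M12 := Finite.of_equiv _ e.toEquiv
  exact H730.OZ.Row.congr e row_m12'

/-! ### `M₁₁` -/

theorem row_m11' [Finite Spor.M11] : H730.OZ.Row Spor.M11 := by
  have hN : Nat.card Spor.M11 = 7920 := H715.Fpr.MathData.card11
  have hs : IsSimpleGroup Spor.M11 := H715.Fpr.MathData.simple11
  refine row_of fun χ x h => ?_
  have h4 : 4 ≤ cent x := four_le_cent h (by rw [hN]; norm_num) (by rw [hN]; norm_num)
  have hiso : ∀ r ∈ [11], charDegree (χ : Spor.M11 → ℂ) % r = 0 ∨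
      charDegree (χ : Spor.M11 → ℂ) % r = 1 ∨ charDegree (χ : Spor.M11 → ℂ) % r = r - 1 := by
    intro r hr
    simp only [List.mem_cons, List.not_mem_nil, or_false] at hr
    rcases hr with rfl
    exact iso_mod h (by norm_num) (by norm_num) (by rw [hN]; norm_num) (by rw [hN]; norm_num) (by rw [hN]; norm_num)
        (fun y hy => card_cent_zpowers H715.Fpr.MathData.cn11_11 hy) h4
  have hm := mem_of_sieve4 h hN (l := [(2,4),(3,2),(5,1),(11,1)]) (by decide +kernel)
    (by
      intro x hx
      simp only [List.mem_cons, List.not_mem_nil, or_false] at hx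
      rcases hx with rfl | rfl | rfl | rfl <;> norm_num)
    (by decide +kernel) h4 hiso (D := [10, 12]) (by decide +kernel)
  have hd : charDegree (χ : Spor.M11 → ℂ) = 10 ∨ charDegree (χ : Spor.M11 → ℂ) = 12 := by
    simpa only [List.mem_cons, List.not_mem_nil, or_false] using hm
  have h5 : cent x ≤ 5 := by
    rcases hd with hd | hd
    · exact cent_le_of h hN (r := 5) (n := 1) (by norm_num) hd (by norm_num) (by norm_num) (by norm_num)
    · exact cent_le_of h hN (r := 5) (n := 1) (by norm_num) hd (by norm_num) (by norm_num) (by norm_num)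
  obtain ⟨y, hy, hcy, hrat⟩ := exists_y11
  have h2 : 2 ∣ charDegree (χ : Spor.M11 → ℂ) := by omega
  have h8 : cent y = 8 := hcy
  have h1 := H849.OZ.one_prime h Nat.prime_two h2 ⟨2, by rw [hy]; norm_num⟩
    (fun m hm => hrat m (odd_of_coprime (by rw [hN]; norm_num) hm)) (fun hc => by
      have h3 := cent_eq_of_conj hc
      omega)
  omega

/-- **`M₁₁`.** -/
theorem row_m11 {S : Type u} [Group S] [Finite S] (_hs : IsSimpleGroup S) (h : Spor.IsoM11 S) : H730.OZ.Row S := by
  obtain ⟨e⟩ := h
  have hfin : Finite Spor.M11 := Finite.of_equiv _ e.toEquiv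
  exact H730.OZ.Row.congr e row_m11'

end Cfsg.Agent.H399.OZ
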